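import Cfsg.Agent.H29.ClsTy
import Cfsg.Agent.H67.SimSqf
import Mathlib.Dynamics.Newton
import Mathlib.FieldTheory.Finite.Extension
import Mathlib.RingTheory.Artinian.Ring

/-! Normal 2-coverings: glue lemmas, and a Hensel-type lemma for matrices over finite fields. -/

set_option autoImplicit false
set_option backward.isDefEq.respectTransparency false

namespace Cfsg.Agent.H68

open Polynomial Module
open scoped commutatorElement

/-- `G` is the union of the conjugates of two proper subgroups -/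
def Cov2 (G : Type*) [Group G] : Prop :=
  ∃ H K : Subgroup G, H ≠ ⊤ ∧ K ≠ ⊤ ∧ ∀ g : G, ∃ x : G, x * g * x⁻¹ ∈ H ∨ x * g * x⁻¹ ∈ K

/-- the elements satisfying `P` are conjugate into one proper subgroup -/
def Half (G : Type*) [Group G] (P : G → Prop) : Prop :=
  ∃ H : Subgroup G, H ≠ ⊤ ∧ ∀ g, P g → ∃ x : G, x * g * x⁻¹ ∈ H

section glue
variable {G G' : Type*} [Group G] [Group G']

theorem cov2_of_half {P P' : G → Prop} (h : Half G P) (h' : Half G P') (hc : ∀ g, P g ∨ P' g) :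
    Cov2 G := by
  obtain ⟨H, h1, h2⟩ := h
  obtain ⟨K, h3, h4⟩ := h'
  refine ⟨H, K, h1, h3, fun g => ?_⟩
  rcases hc g with h | h
  · obtain ⟨x, hx⟩ := h2 g h; exact ⟨x, Or.inl hx⟩
  · obtain ⟨x, hx⟩ := h4 g h; exact ⟨x, Or.inr hx⟩

theorem Cov2.map (π : G →* G') (hπ : Function.Surjective π)
    (hp : ∀ H : Subgroup G, H.map π = ⊤ → H = ⊤) (h : Cov2 G) : Cov2 G' := by
  obtain ⟨H, K, h1, h2, h3⟩ := h
  refine ⟨H.map π, K.map π, fun e => h1 (hp H e), fun e => h2 (hp K e), fun g => ?_⟩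
  obtain ⟨g, rfl⟩ := hπ g
  obtain ⟨x, hx⟩ := h3 g
  exact ⟨π x, hx.imp (fun h => ⟨_, h, by simp⟩) fun h => ⟨_, h, by simp⟩⟩

theorem Cov2.equiv (e : G ≃* G') (h : Cov2 G) : Cov2 G' :=
  h.map e.toMonoidHom e.surjective fun H hH => by
    rw [← Subgroup.comap_map_eq_self_of_injective (f := e.toMonoidHom) e.injective H, hH,
      Subgroup.comap_top]

theorem Cov2.quot (hG : commutator G = ⊤) (h : Cov2 G) : Cov2 (G ⧸ Subgroup.center G) :=
  h.map (QuotientGroup.mk' _) (QuotientGroup.mk'_surjective _) fun H hH => by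
    have key : ∀ g : G, ∃ a ∈ H, ∃ z ∈ Subgroup.center G, g = a * z := fun g => by
      obtain ⟨a, ha, e⟩ : (QuotientGroup.mk' _ g : G ⧸ Subgroup.center G) ∈
        H.map (QuotientGroup.mk' _) := hH ▸ Subgroup.mem_top _
      exact ⟨a, ha, a⁻¹ * g, QuotientGroup.eq.1 e, by group⟩
    rw [eq_top_iff, ← hG, commutator_def, Subgroup.commutator_le]
    rintro g - g' -
    obtain ⟨a, ha, z, hz, rfl⟩ := key g
    obtain ⟨b, hb, w, hw, rfl⟩ := key g'
    have e : ⁅a * z, b * w⁆ = a * b * a⁻¹ * b⁻¹ := by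
      have h1 := Subgroup.mem_center_iff.1 hz
      have h2 := Subgroup.mem_center_iff.1 hw
      calc ⁅a * z, b * w⁆ = a * (z * (b * w) * z⁻¹) * a⁻¹ * w⁻¹ * b⁻¹ := by
            rw [commutatorElement_def]; group
        _ = a * b * (w * a⁻¹ * w⁻¹) * b⁻¹ := by rw [← h1]; group
        _ = a * b * a⁻¹ * b⁻¹ := by rw [← h2]; group
    rw [e]
    exact H.mul_mem (H.mul_mem (H.mul_mem ha hb) (H.inv_mem ha)) (H.inv_mem hb)

theorem half_of_act {X : Type*} [Nontrivial G] (R : G → X → X) (E : X → X → Prop)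
    (hE : Equivalence E) (hmul : ∀ g h x, R (g * h) x = R g (R h x)) (hone : ∀ x, R 1 x = x)
    (hc : ∀ g x y, E x y → E (R g x) (R g y)) (S : X → Prop)
    (htr : ∀ x y, S x → S y → ∃ g, E (R g x) y) (hmv : ∀ x, S x → ∃ g, ¬ E (R g x) x) :
    Half G fun g => ∃ x, S x ∧ E (R g x) x := by
  by_cases h : ∃ x, S x
  · obtain ⟨x, hx⟩ := h
    have hi : ∀ g y, R g⁻¹ (R g y) = y := fun g y => by rw [← hmul, inv_mul_cancel, hone]
    let H : Subgroup G :=
      { carrier := {g | E (R g x) x}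
        one_mem' := by simpa [hone] using hE.refl x
        mul_mem' := fun {a b} ha hb => by
          change E (R (a * b) x) x
          rw [hmul]; exact hE.trans (hc a _ _ hb) ha
        inv_mem' := fun {a} ha => by
          have := hc a⁻¹ _ _ ha
          rw [hi] at this
          exact hE.symm this }
    obtain ⟨g, hg⟩ := hmv x hx
    refine ⟨H, fun e => hg (show g ∈ H from e ▸ Subgroup.mem_top g), ?_⟩
    rintro g ⟨y, hy, hgy⟩
    obtain ⟨c, hcy⟩ := htr y x hy hx
    refine ⟨c, ?_⟩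
    change E (R (c * g * c⁻¹) x) x
    have h1 := hc c⁻¹ _ _ hcy
    rw [hi] at h1
    rw [hmul, hmul]
    exact hE.trans (hc c _ _ (hE.trans (hc g _ _ (hE.symm h1)) hgy)) hcy
  · exact ⟨⊥, bot_ne_top, fun g ⟨x, hx, _⟩ => absurd ⟨x, hx⟩ h⟩

theorem half_of_act2 {X : Type*} [Nontrivial G] (R : G → X → X) (E : X → X → Prop)
    (hE : Equivalence E) (hmul : ∀ g h x, R (g * h) x = R g (R h x)) (hone : ∀ x, R 1 x = x)
    (hc : ∀ g x y, E x y → E (R g x) (R g y)) (S : X → Prop)
    (htr : ∀ x y, S x → S y → ∃ g, E (R g x) y) (hmv : ∃ y z, S y ∧ S z ∧ ¬ E y z) :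
    Half G fun g => ∃ x, S x ∧ E (R g x) x := by
  refine half_of_act R E hE hmul hone hc S htr fun x hx => ?_
  obtain ⟨y, z, hy, hz, h⟩ := hmv
  by_contra hn
  push Not at hn
  obtain ⟨g, hg⟩ := htr x y hx hy
  obtain ⟨k, hk⟩ := htr x z hx hz
  exact h (hE.trans (hE.trans (hE.symm hg) (hn g)) (hE.trans (hE.symm (hn k)) hk))

theorem Half.mono {P P' : G → Prop} (h : Half G P) (hP : ∀ g, P' g → P g) : Half G P' := by
  obtain ⟨H, h1, h2⟩ := h
  exact ⟨H, h1, fun g hg => h2 g (hP g hg)⟩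

theorem Half.conj {P : G → Prop} (h : Half G P) : Half G fun g => ∃ k, IsConj g k ∧ P k := by
  obtain ⟨H, h1, h2⟩ := h
  refine ⟨H, h1, ?_⟩
  rintro g ⟨k, hk, hP⟩
  obtain ⟨c, rfl⟩ := isConj_iff.1 hk
  obtain ⟨x, hx⟩ := h2 _ hP
  exact ⟨x * c, by convert hx using 1; group⟩

end glue

variable {F : Type*} [Field F] [Finite F]

theorem exists_irr_deg {n : ℕ} (hn : n ≠ 0) :
    ∃ P : F[X], Irreducible P ∧ P.Monic ∧ P.natDegree = n := by
  obtain ⟨p, hp⟩ := CharP.exists F
  have : Fact p.Prime := ⟨CharP.char_is_prime F p⟩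
  have : NeZero n := ⟨hn⟩
  obtain ⟨a, ha⟩ := Field.exists_primitive_element F (FiniteField.Extension F p n)
  have hi : IsIntegral F a := Algebra.IsIntegral.isIntegral a
  refine ⟨minpoly F a, minpoly.irreducible hi, minpoly.monic hi, ?_⟩
  rw [(Field.primitive_element_iff_minpoly_natDegree_eq F a).1 ha, FiniteField.finrank_extension]

theorem exists_root_of_dvd {L : Type*} [Field L] [Finite L] [Algebra F L] {P : F[X]}
    (hP : Irreducible P) (h : P.natDegree ∣ finrank F L) : ∃ y : L, aeval y P = 0 := by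
  have := Fact.mk hP
  obtain ⟨φ⟩ := FiniteField.nonempty_algHom_of_finrank_dvd (F := F) (K := AdjoinRoot P) (L := L)
    (by rwa [H67.finrank_adjoinRoot])
  exact ⟨φ (AdjoinRoot.root P), by rw [aeval_algHom_apply, AdjoinRoot.aeval_eq,
    AdjoinRoot.mk_self, map_zero]⟩

/-- Hensel-type lemma -/
theorem exists_root_poly {A : Type*} [Ring A] [Algebra F A] {T : A} {μ P : F[X]} (hμ : μ.Monic)
    (hT : aeval T μ = 0) (hP : Irreducible P)
    (h : ∀ f : F[X], Irreducible f → f.Monic → f ∣ μ → P.natDegree ∣ f.natDegree) :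
    ∃ R : F[X], aeval (aeval T R) P = 0 := by
  have := H66.adjoinRoot_finite hμ
  have : Finite (AdjoinRoot μ) := Module.finite_of_finite F
  have key : ∀ m : MaximalSpectrum (AdjoinRoot μ), ∃ y : AdjoinRoot μ ⧸ m.asIdeal,
      aeval y P = 0 := by
    intro m
    letI := Ideal.Quotient.field m.asIdeal
    haveI : Finite (AdjoinRoot μ ⧸ m.asIdeal) :=
      Finite.of_surjective _ Ideal.Quotient.mk_surjective
    have hi : IsIntegral F (Ideal.Quotient.mkₐ F m.asIdeal (AdjoinRoot.root μ)) :=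
      Algebra.IsIntegral.isIntegral _
    refine exists_root_of_dvd hP ((h _ (minpoly.irreducible hi) (minpoly.monic hi)
      (minpoly.dvd _ _ ?_)).trans (minpoly.degree_dvd hi))
    rw [aeval_algHom_apply, AdjoinRoot.aeval_eq, AdjoinRoot.mk_self, map_zero]
  choose y hy using key
  have hco : Pairwise (Function.onFun IsCoprime
      fun m : MaximalSpectrum (AdjoinRoot μ) => m.asIdeal) := fun I _ => I.isCoprime_of_ne
  obtain ⟨x, hx⟩ := Ideal.pi_quotient_surjective hco y
  have h1 : IsNilpotent (aeval x P) := by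
    rw [← mem_nilradical, IsArtinianRing.nilradical_eq_iInf, Ideal.mem_iInf]
    intro m
    rw [← Ideal.Quotient.eq_zero_iff_mem]
    change Ideal.Quotient.mkₐ F m.asIdeal _ = 0
    rw [← aeval_algHom_apply, Ideal.Quotient.mkₐ_eq_mk, hx, hy]
  obtain ⟨a, b, hab⟩ := (PerfectField.separable_of_irreducible hP)
  have h2 : IsUnit (aeval x (derivative P)) := by
    have e := congrArg (aeval x) hab
    rw [map_add, map_mul, map_mul, map_one] at e
    have : IsUnit (1 - aeval x a * aeval x P) :=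
      ((Commute.all _ _).isNilpotent_mul_left h1).isUnit_one_sub
    rw [← e, add_sub_cancel_left] at this
    exact isUnit_of_mul_isUnit_right this
  obtain ⟨r, ⟨-, hr⟩, -⟩ := existsUnique_nilpotent_sub_and_aeval_eq_zero h1 h2
  obtain ⟨R, rfl⟩ := AdjoinRoot.mk_surjective r
  refine ⟨R, ?_⟩
  rw [← AdjoinRoot.aeval_eq, ← aeval_comp, AdjoinRoot.aeval_eq, AdjoinRoot.mk_eq_zero] at hr
  obtain ⟨c, hc⟩ := hr
  rw [← aeval_comp, hc, map_mul, hT, zero_mul]

variable {ι : Type} [Fintype ι] [DecidableEq ι]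

theorem exists_comm_det_sqf [Nonempty ι] {J : Matrix ι ι F} {P : F[X]} (hP : Squarefree P)
    (hJ : aeval J P = 0) {a : F} (ha : a ≠ 0) :
    ∃ C : GL ι F, C.val * J = J * C.val ∧ C.val.det = a := by
  let D := H29.dec (Matrix.toLin' J)
  obtain ⟨k⟩ : Nonempty (Fin D.t) := by
    have h1 := D.finrank_eq
    by_contra H
    rw [not_nonempty_iff] at H
    simp at h1
  obtain ⟨C, h3, h4⟩ := D.exists_comm_det k ha
  have h7 := (D.sim.aeval P).eq_zero_iff.1 (by
    change aeval (Matrix.toLinAlgEquiv' J) P = 0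
    rw [aeval_algHom_apply, hJ, map_zero])
  have h8 := H67.aeval_modT_apply (fun k => D.p k ^ D.e k) P 1 k
  rw [h7, Pi.one_apply, mul_one, eq_comm, LinearMap.zero_apply, Pi.zero_apply,
    AdjoinRoot.mk_eq_zero] at h8
  have := (hP.squarefree_of_dvd h8).eq_zero_or_one_of_pow_of_not_isUnit (D.irr k).not_isUnit
  have h6 := D.pos k
  rw [show D.e k = 1 by omega, pow_one] at h4
  exact ⟨C, h3, h4⟩

omit [Finite F] in
theorem isConj_of_irr {J J' : Matrix ι ι F} {P : F[X]} (hP : Irreducible P) (hm : P.Monic)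
    (hJ : aeval J P = 0) (hJ' : aeval J' P = 0) : IsConj J J' := by
  rw [H67.isConj_iff_sim]
  refine H67.sim_of_aeval_irreducible hP hm ?_ ?_ rfl
  · change aeval (Matrix.toLinAlgEquiv' J) P = 0
    rw [aeval_algHom_apply, hJ, map_zero]
  · change aeval (Matrix.toLinAlgEquiv' J') P = 0
    rw [aeval_algHom_apply, hJ', map_zero]

omit [Finite F] in
theorem not_root_of_irr {P : F[X]} (hP : Irreducible P) (hd : 2 ≤ P.natDegree) (c : F) :
    P.eval c ≠ 0 := fun h => by
  have := degree_eq_one_of_irreducible_of_root hP h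
  have h1 : P.natDegree = 1 := natDegree_eq_of_degree_eq_some this
  omega

end Cfsg.Agent.H68
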