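import Cfsg.Agent.H68.Cov0
import Cfsg.Agent.H85.G2Ord
import Cfsg.Agent.H27.FinField

/-! A normal 2-covering of `G₂(q)`, `q` even. -/

set_option autoImplicit false
set_option backward.isDefEq.respectTransparency false

namespace Cfsg.Agent.H68

open Matrix Cfsg.Lie H85

variable {F : Type*} [Field F]

local notation "𝐆" => AutM F (zornMul (F := F))

/-- the norm of a Zorn vector matrix -/
def zN (x : Fin 8 → F) : F := x 0 * x 7 - (x 1 * x 4 + x 2 * x 5 + x 3 * x 6)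

theorem zorn_sq (x : Fin 8 → F) : zornMul x x = (x 0 + x 7) • x - zN x • zOne := by
  apply fin8_ext <;> simp [zorn_eq, zOne, zN] <;> ring

theorem aut_sq (g : 𝐆) (x : Fin 8 → F) :
    (x 0 + x 7) • g.1 x - zN x • zOne = (g.1 x 0 + g.1 x 7) • g.1 x - zN (g.1 x) • zOne := by
  rw [← zorn_sq, ← g.2, zorn_sq, map_sub, map_smul, map_smul, aut_one]

theorem aut_tr (g : 𝐆) (x : Fin 8 → F) : g.1 x 0 + g.1 x 7 = x 0 + x 7 := by
  by_contra h
  have h1 := sub_ne_zero.2 h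
  have e : g.1 x = ((g.1 x 0 + g.1 x 7 - (x 0 + x 7))⁻¹ * (zN (g.1 x) - zN x)) • zOne := by
    rw [mul_smul, eq_inv_smul_iff₀ h1]
    linear_combination (norm := module) -aut_sq g x
  have e2 : g.1 x = x := by
    rw [← aut_one g, ← map_smul] at e
    rw [g.1.injective e, map_smul, aut_one]
  exact h (by rw [e2])

theorem aut_N (g : 𝐆) (x : Fin 8 → F) : zN (g.1 x) = zN x := by
  have := congrFun (aut_sq g x) 0
  rw [aut_tr] at this
  simpa [zOne] using this.symm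

/-- the polar form of the norm -/
def zB' (x y : Fin 8 → F) : F := zN (x + y) - zN x - zN y

theorem aut_B (g : 𝐆) (x y : Fin 8 → F) : zB' (g.1 x) (g.1 y) = zB' x y := by
  simp only [zB', ← map_add, aut_N]

theorem g2_exists_fixed (g : 𝐆) : ∃ x : Fin 8 → F, x 0 + x 7 = 1 ∧ ∃ s : F, g.1 x = x + s • zOne := by
  by_contra hc
  let ψ := (Submodule.span F {(zOne : Fin 8 → F)}).mkQ ∘ₗ (g.1.toLinearMap - LinearMap.id)
  let pr : Fin 8 → Module.Dual F (Fin 8 → F) := fun i => LinearMap.proj i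
  have h1 : pr 0 + pr 7 ∈ LinearMap.range ψ.dualMap := by
    rw [LinearMap.range_dualMap_eq_dualAnnihilator_ker, Submodule.mem_dualAnnihilator]
    intro x hx
    by_contra h0
    change x 0 + x 7 ≠ 0 at h0
    obtain ⟨s, hs⟩ := Submodule.mem_span_singleton.1 ((Submodule.Quotient.mk_eq_zero _).1 hx)
    refine hc ⟨(x 0 + x 7)⁻¹ • x, by simp only [Pi.smul_apply, smul_eq_mul]; field_simp,
      (x 0 + x 7)⁻¹ * s, ?_⟩
    rw [map_smul, mul_smul, hs, ← smul_add]
    simp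
  obtain ⟨m, hm⟩ := h1
  set l := m ∘ₗ (Submodule.span F {(zOne : Fin 8 → F)}).mkQ
  have h2 : ∀ x, l (g.1 x - x) = x 0 + x 7 := fun x => LinearMap.congr_fun hm x
  have h3 : l zOne = 0 := by
    change m (Submodule.Quotient.mk _) = 0
    rw [(Submodule.Quotient.mk_eq_zero _).2 (Submodule.mem_span_singleton_self _), map_zero]
  obtain ⟨y, hy⟩ : ∃ y, ∀ x, l x = zB' y x := by
    refine ⟨![l (Pi.single 7 1), -l (Pi.single 4 1), -l (Pi.single 5 1), -l (Pi.single 6 1),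
      -l (Pi.single 1 1), -l (Pi.single 2 1), -l (Pi.single 3 1), l (Pi.single 0 1)], fun x => ?_⟩
    rw [LinearMap.pi_apply_eq_sum_univ]
    simp only [Fin.sum_univ_eight, zB', zN, ← Pi.single_apply, Pi.add_apply, cons_val, smul_eq_mul]
    have : ∀ i : Fin 8, (fun j => (Pi.single j (1 : F) : Fin 8 → F) i) = Pi.single i 1 := fun i => by
      ext j; simp [Pi.single_apply, eq_comm]
    simp only [this]
    ring
  have h4 : ∀ x, zB' (g.1.symm y) x - zB' y x = x 0 + x 7 := fun x => by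
    rw [← h2, map_sub, hy, hy, ← aut_B g, LinearEquiv.apply_symm_apply]
  have h5 : g.1.symm y = y + zOne := by
    generalize g.1.symm y = z at h4
    have e0 := h4 (Pi.single 0 1)
    have e1 := h4 (Pi.single 1 1)
    have e2 := h4 (Pi.single 2 1)
    have e3 := h4 (Pi.single 3 1)
    have e4 := h4 (Pi.single 4 1)
    have e5 := h4 (Pi.single 5 1)
    have e6 := h4 (Pi.single 6 1)
    have e7 := h4 (Pi.single 7 1)
    simp [zB', zN] at e0 e1 e2 e3 e4 e5 e6 e7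
    apply fin8_ext <;> simp [zOne]
    exacts [by linear_combination e7, by linear_combination -e4, by linear_combination -e5,
      by linear_combination -e6, by linear_combination -e1, by linear_combination -e2,
      by linear_combination -e3, by linear_combination e0]
  have h6 := aut_N g (g.1.symm y)
  rw [LinearEquiv.apply_symm_apply, h5] at h6
  rw [hy, zB', ← h6] at h3
  simp [zN, zOne] at h3

/-- an automorphism from a linear map with an inverse -/
def mkAut (f f' : (Fin 8 → F) →ₗ[F] (Fin 8 → F)) (h : ∀ x, f (f' x) = x) (h' : ∀ x, f' (f x) = x)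
    (hm : ∀ x y, f (zornMul x y) = zornMul (f x) (f y)) : 𝐆 :=
  ⟨LinearEquiv.ofLinearMap f f' (LinearMap.ext h) (LinearMap.ext h'), hm⟩

/-- rotation of coordinates -/
def pLin : (Fin 8 → F) →ₗ[F] (Fin 8 → F) where
  toFun x := ![x 0, x 2, x 3, x 1, x 5, x 6, x 4, x 7]
  map_add' x y := by apply fin8_ext <;> simp
  map_smul' c x := by apply fin8_ext <;> simp

theorem pLin_apply (x : Fin 8 → F) : pLin x = ![x 0, x 2, x 3, x 1, x 5, x 6, x 4, x 7] := rfl

/-- rotation as an automorphism -/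
def pAut : 𝐆 := mkAut pLin (pLin ∘ₗ pLin)
  (fun x => by apply fin8_ext <;> simp [pLin_apply])
  (fun x => by apply fin8_ext <;> simp [pLin_apply])
  fun x y => by apply fin8_ext <;> simp [pLin_apply, zorn_eq] <;> ring

/-- a parabolic element of `SL₃` -/
def eLin (t t' c d : F) : (Fin 8 → F) →ₗ[F] (Fin 8 → F) where
  toFun x := ![x 0, t * x 1, t' * (x 2 + c * x 1), x 3 + d * x 1,
    t' * (x 4 - c * x 5 - d * x 6), t * x 5, x 6, x 7]
  map_add' x y := by apply fin8_ext <;> simp <;> ring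
  map_smul' c x := by apply fin8_ext <;> simp <;> ring

theorem eLin_apply (t t' c d : F) (x : Fin 8 → F) : eLin t t' c d x = ![x 0, t * x 1,
    t' * (x 2 + c * x 1), x 3 + d * x 1, t' * (x 4 - c * x 5 - d * x 6), t * x 5, x 6, x 7] := rfl

/-- a parabolic element of `SL₃` as an automorphism -/
def eAut {t : F} (h : t ≠ 0) (c d : F) : 𝐆 :=
  mkAut (eLin t t⁻¹ c d) (eLin t⁻¹ t (-c * t⁻¹ * t⁻¹) (-d * t⁻¹))
  (fun x => by apply fin8_ext <;> simp [eLin_apply] <;> field_simp <;> ring)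
  (fun x => by apply fin8_ext <;> simp [eLin_apply] <;> field_simp <;> ring)
  fun x y => by apply fin8_ext <;> simp [eLin_apply, zorn_eq] <;> field_simp <;> ring

theorem pAut_smul (x : Fin 8 → F) : (pAut : 𝐆) • x = pLin x := rfl
theorem eAut_smul {t : F} (h : t ≠ 0) (c d : F) (x : Fin 8 → F) :
    eAut h c d • x = eLin t t⁻¹ c d x := rfl

theorem mem_orbit_ns {n : F} (hn : ∀ r : F, r ^ 2 - r + n ≠ 0) (x : Fin 8 → F) (h1 : x 0 + x 7 = 1)
    (h2 : zN x = n) : x ∈ MulAction.orbit 𝐆 (![0, 1, 0, 0, -n, 0, 0, 1] : Fin 8 → F) := by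
  have step : ∀ (g : 𝐆) (y : Fin 8 → F),
      g • y ∈ MulAction.orbit 𝐆 (![0, 1, 0, 0, -n, 0, 0, 1] : Fin 8 → F) →
      y ∈ MulAction.orbit 𝐆 (![0, 1, 0, 0, -n, 0, 0, 1] : Fin 8 → F) := by
    rintro g y ⟨h, hh⟩
    exact ⟨g⁻¹ * h, by simp only [mul_smul, hh, inv_smul_smul]⟩
  have hn0 : n ≠ 0 := by simpa using hn 0
  have s3 : ∀ y : Fin 8 → F, y 0 = 0 → y 7 = 1 → y 1 = 1 → y 2 = 0 → y 3 = 0 → y 4 = -n →
      y ∈ MulAction.orbit 𝐆 (![0, 1, 0, 0, -n, 0, 0, 1] : Fin 8 → F) := by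
    intro y a0 a7 a1 a2 a3 a4
    refine step sAut _ (step (eAut one_ne_zero (y 5 / n) (y 6 / n)) _ (step sAut _ ?_))
    convert MulAction.mem_orbit_self _
    rw [sAut_smul, eAut_smul, sAut_smul]
    apply fin8_ext <;> simp [sLin_apply, eLin_apply, *]
  have s2 : ∀ y : Fin 8 → F, y 0 = 0 → y 7 = 1 → y 1 ≠ 0 → zN y = n →
      y ∈ MulAction.orbit 𝐆 (![0, 1, 0, 0, -n, 0, 0, 1] : Fin 8 → F) := by
    intro y a0 a7 a1 h
    refine step (eAut (inv_ne_zero a1) (-y 2 / y 1) (-y 3 / y 1)) _ (s3 _ ?_ ?_ ?_ ?_ ?_ ?_) <;>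
      simp only [eAut_smul, eLin_apply, cons_val, a0, a7]
    · field_simp
    · field_simp; ring
    · field_simp; ring
    · rw [← h, zN, a0]; field_simp; ring
  have s1 : ∀ y : Fin 8 → F, y 0 = 0 → y 7 = 1 → zN y = n →
      y ∈ MulAction.orbit 𝐆 (![0, 1, 0, 0, -n, 0, 0, 1] : Fin 8 → F) := by
    intro y a0 a7 h
    by_cases b1 : y 1 = 0
    · by_cases b2 : y 2 = 0
      · refine step pAut _ (step pAut _ (s2 _ a0 a7 (fun b3 : y 3 = 0 => hn0 ?_) ?_))
        · rw [← h, zN, a0, b1, b2, b3]; ring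
        · exact (aut_N _ _).trans ((aut_N _ _).trans h)
      · exact step pAut _ (s2 _ a0 a7 b2 ((aut_N _ _).trans h))
    · exact s2 y a0 a7 b1 h
  have s0 : ∀ u v w : F, u * x 4 + v * x 5 + w * x 6 = x 0 →
      x ∈ MulAction.orbit 𝐆 (![0, 1, 0, 0, -n, 0, 0, 1] : Fin 8 → F) := by
    intro u v w h
    refine step (tAut u v w) _ (s1 _ ?_ ?_ ((aut_N _ _).trans h2)) <;>
      simp only [tAut_smul, tLin_apply, cons_val]
    · linear_combination -h
    · linear_combination h1 + h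
  by_cases h4 : x 4 = 0
  · by_cases h5 : x 5 = 0
    · by_cases h6 : x 6 = 0
      · refine absurd ?_ (hn (x 0))
        rw [← h2, zN, h4, h5, h6]; linear_combination x 0 * h1
      · exact s0 0 0 (x 0 / x 6) (by field_simp; ring)
    · exact s0 0 (x 0 / x 5) 0 (by field_simp; ring)
  · exact s0 (x 0 / x 4) 0 0 (by field_simp; ring)

theorem half_G2 {n : F} {x₀ : Fin 8 → F}
    (h : ∀ x : Fin 8 → F, x 0 + x 7 = 1 → zN x = n → x ∈ MulAction.orbit 𝐆 x₀) :
    Half 𝐆 fun g => ∃ x : Fin 8 → F, (x 0 + x 7 = 1 ∧ zN x = n) ∧ ∃ s : F, g • x = x + s • zOne := by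
  have : Nontrivial 𝐆 := ⟨sAut, 1, fun e => by
    have := congrArg (fun g : 𝐆 => (g • (zE : Fin 8 → F)) 0) e
    simp [sAut_smul, sLin_apply, zE] at this⟩
  refine half_of_act2 (fun (g : 𝐆) (x : Fin 8 → F) => g • x) (fun x y => ∃ s : F, x = y + s • zOne)
    ⟨fun x => ⟨0, by simp⟩, ?_, ?_⟩ mul_smul (one_smul _) ?_ _ ?_
    ⟨![0, 1, 0, 0, -n, 0, 0, 1], ![0, 0, 1, 0, 0, -n, 0, 1], by simp [zN], by simp [zN], ?_⟩
  · rintro _ y ⟨s, rfl⟩; exact ⟨-s, by simp⟩
  · rintro _ _ y ⟨s, rfl⟩ ⟨t, rfl⟩; exact ⟨t + s, by rw [add_smul, add_assoc]⟩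
  · rintro g _ y ⟨s, rfl⟩
    exact ⟨s, show g.1 _ = g.1 y + _ by rw [map_add, map_smul, aut_one]⟩
  · rintro x y ⟨h1, h2⟩ ⟨h3, h4⟩
    obtain ⟨a, rfl⟩ := h x h1 h2
    obtain ⟨b, rfl⟩ := h y h3 h4
    exact ⟨b * a⁻¹, 0, by simp [mul_smul]⟩
  · rintro ⟨s, hs⟩
    simpa [zOne] using congrFun hs 1

theorem cov_G2 [Finite F] (h2 : (2 : F) = 0) : Cov2 (G2 F) := by
  refine Cov2.equiv (mulAutEquiv _).symm ?_
  obtain ⟨n, hn⟩ := H27.exists_anisotropic_binary F
  have hn' : ∀ r : F, r ^ 2 + 1 * r ≠ n := fun r e =>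
    one_ne_zero (hn r 1 (by linear_combination e + n * h2)).2
  refine cov2_of_half (half_G2 (n := 0) (x₀ := zE) fun x h1 h3 => (mem_orbit_zE x).2
    ⟨h1, by rw [zN] at h3; linear_combination -h3⟩) (half_G2 (mem_orbit_ns (n := n) fun r e =>
      hn' r (by linear_combination e + (r - n) * h2))) fun g => ?_
  obtain ⟨x, h1, s, hs⟩ := g2_exists_fixed g
  have key : ∀ r : F, ((x + r • zOne : Fin 8 → F) 0 + (x + r • zOne : Fin 8 → F) 7 = 1 ∧
      zN (x + r • zOne) = zN x + (r ^ 2 + 1 * r)) ∧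
      ∃ s : F, g • (x + r • zOne) = x + r • zOne + s • zOne := fun r => by
    refine ⟨⟨?_, ?_⟩, s, show g.1 _ = _ by rw [map_add, map_smul, aut_one, hs]; abel⟩
    · simp [zOne]; linear_combination h1 + r * h2
    · simp [zOne, zN]; linear_combination r * h1
  by_cases h : ∃ r : F, r ^ 2 + 1 * r = zN x
  · obtain ⟨r, hr⟩ := h
    exact Or.inl ⟨_, ⟨(key r).1.1, by rw [(key r).1.2, hr]; linear_combination zN x * h2⟩, (key r).2⟩
  · push Not at h
    obtain ⟨r, hr⟩ := H27.exists_sq_add_mul_eq_add h2 h hn'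
    exact Or.inr ⟨_, ⟨(key r).1.1, by rw [(key r).1.2, hr]; linear_combination zN x * h2⟩, (key r).2⟩

end Cfsg.Agent.H68
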