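import Mathlib.GroupTheory.Perm.Cycle.Type
import Mathlib.Dynamics.PeriodicPts.Lemmas

/-! Inserting points into cycles; contraction of an involution along a pair of points. -/

set_option autoImplicit false
set_option linter.unusedSectionVars false

namespace Cfsg.Agent.H68

open Equiv Equiv.Perm Finset

variable {α : Type*} [Fintype α] [DecidableEq α]

/-- the length of the cycle through a point -/
def cyc (w : Perm α) (v : α) : ℕ := (univ.filter (fun q => SameCycle w v q)).card

theorem sameCycle_ind {w : Perm α} {R : α → α → Prop} (hr : ∀ p, R p p)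
    (ht : ∀ p q r, R p q → R q r → R p r) (hs : ∀ p, R p (w p)) {p q : α} (h : SameCycle w p q) :
    R p q := by
  obtain ⟨i, -, rfl⟩ := h.exists_pow_eq'
  clear h
  induction i with
  | zero => exact hr p
  | succ i ih => rw [pow_succ', Perm.mul_apply]; exact ht _ _ _ ih (hs _)

theorem sc_apply (w : Perm α) (p : α) : SameCycle w p (w p) := ⟨1, by simp⟩

theorem cyc_congr {w : Perm α} {p q : α} (h : SameCycle w p q) : cyc w p = cyc w q := by
  unfold cyc
  congr 1; ext r
  simp only [mem_filter, mem_univ, true_and]
  exact ⟨fun h' => h.symm.trans h', fun h' => h.trans h'⟩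

theorem cyc_fixed {w : Perm α} {p : α} (h : w p = p) : cyc w p = 1 := by
  unfold cyc
  rw [card_eq_one]
  refine ⟨p, ?_⟩
  ext r
  simp only [mem_filter, mem_univ, true_and, mem_singleton]
  exact ⟨fun h' => (h'.eq_of_left h).symm, fun h' => h' ▸ SameCycle.refl _ _⟩

theorem odd_orderOf_of_cyc {w : Perm α} (h : ∀ v, Odd (cyc w v)) : Odd (orderOf w) := by
  rw [← lcm_cycleType]
  refine Odd.of_dvd_nat ?_ (Multiset.lcm_dvd.2 fun n hn => Multiset.dvd_prod hn)
  refine Multiset.prod_induction _ _ (fun a b => Odd.mul) odd_one fun n hn => ?_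
  rw [cycleType_def, Multiset.mem_map] at hn
  obtain ⟨c, hc, rfl⟩ := hn
  obtain ⟨v, hv⟩ := (mem_cycleFactorsFinset_iff.1 hc).1.nonempty_support
  have e := cycle_is_cycleOf hv hc
  have hv' : v ∈ w.support := mem_cycleFactorsFinset_support_le hc hv
  have : c.support = univ.filter (fun q => SameCycle w v q) := by
    ext q
    rw [e, mem_support_cycleOf_iff]
    simp [hv']
  have h1 := h v
  unfold cyc at h1
  simpa [this] using h1

section ins
variable {w : Perm α} {a u : α}

theorem ins_sc_iff (ha : w a = a) (hu : u ≠ a) (p q : α) :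
    SameCycle (swap a u * w) p q ↔
      SameCycle w (if p = a then u else p) (if q = a then u else q) := by
  have hne : ∀ p, p ≠ a → w p ≠ a := fun p hp h => hp (w.injective (h.trans ha.symm))
  constructor
  · refine sameCycle_ind (R := fun p q => SameCycle w (if p = a then u else p)
      (if q = a then u else q)) (fun _ => SameCycle.refl _ _) (fun _ _ _ => SameCycle.trans) ?_
    intro p
    by_cases hp : p = a
    · simp [hp, ha, hu, SameCycle.refl]
    · by_cases h2 : w p = u
      · simp only [hp, if_false, Perm.mul_apply, h2, swap_apply_right, if_true]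
        exact h2 ▸ sc_apply w p
      · simp only [hp, if_false, Perm.mul_apply, swap_apply_of_ne_of_ne (hne p hp) h2, hne p hp]
        exact sc_apply w p
  · intro h
    have h1 : ∀ p, SameCycle (swap a u * w) p (if p = a then u else p) := by
      intro p
      split_ifs with hp
      · have := sc_apply (swap a u * w) a
        rw [Perm.mul_apply, ha, swap_apply_left] at this
        rwa [hp]
      · exact SameCycle.refl _ _
    refine (h1 p).trans (SameCycle.trans ?_ (h1 q).symm)
    refine sameCycle_ind (R := SameCycle (swap a u * w)) (fun _ => SameCycle.refl _ _)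
      (fun _ _ _ => SameCycle.trans) (fun p => ?_) h
    by_cases hp : p = a
    · rw [hp, ha]
    · by_cases h2 : w p = u
      · have := (sc_apply (swap a u * w) p).trans (h1 _)
        simpa [h2] using this
      · have := sc_apply (swap a u * w) p
        rwa [Perm.mul_apply, swap_apply_of_ne_of_ne (hne p hp) h2] at this

theorem ins_sc (ha : w a = a) (hu : u ≠ a) {p q : α} (hp : p ≠ a) (hq : q ≠ a) :
    SameCycle (swap a u * w) p q ↔ SameCycle w p q := by
  rw [ins_sc_iff ha hu, if_neg hp, if_neg hq]

theorem ins_sc_new (ha : w a = a) (hu : u ≠ a) : SameCycle (swap a u * w) a u := by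
  rw [ins_sc_iff ha hu, if_pos rfl, if_neg hu]

theorem ins_cyc (ha : w a = a) (hu : u ≠ a) {p : α} (hp : p ≠ a) :
    cyc (swap a u * w) p = cyc w p + if SameCycle w p u then 1 else 0 := by
  have hna : ¬ SameCycle w p a := fun h => hp (h.eq_of_right ha)
  unfold cyc
  split_ifs with h
  · rw [← card_insert_of_notMem (a := a) (by simpa using hna)]
    congr 1; ext q
    simp only [mem_filter, mem_univ, true_and, mem_insert, ins_sc_iff ha hu, if_neg hp]
    by_cases hq : q = a <;> simp [hq, h]
  · rw [add_zero]
    congr 1; ext q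
    simp only [mem_filter, mem_univ, true_and, ins_sc_iff ha hu, if_neg hp]
    by_cases hq : q = a <;> simp [hq, h, hna]

end ins

/-- contraction of an involution along the pair `a, b` -/
def contr (x : Perm α) (a b : α) : Perm α := swap b (x a) * x * swap b (x a) * swap a b

/-- admissible contraction data -/
structure CD (x : Perm α) (a b : α) : Prop where
  inv : x * x = 1
  mv : x a ≠ a
  ne : b ≠ a
  ne' : b ≠ x a

namespace CD
variable {x : Perm α} {a b : α} (h : CD x a b)
include h

theorem xx (v : α) : x (x v) = v := by rw [← Perm.mul_apply, h.inv, Perm.one_apply]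

theorem xb_ne : x b ≠ a := fun e => h.ne' (by rw [← e, h.xx])

theorem xb_ne' : x b ≠ x a := fun e => h.ne (x.injective e)

theorem apply_a : contr x a b a = a := by
  simp [contr, h.xx, swap_apply_of_ne_of_ne h.ne.symm h.mv.symm]

theorem apply_b : contr x a b b = b := by
  simp [contr, swap_apply_of_ne_of_ne h.ne.symm h.mv.symm]

theorem apply_xa : contr x a b (x a) = if x b = b then x a else x b := by
  simp only [contr, Perm.mul_apply, swap_apply_of_ne_of_ne h.mv h.ne'.symm, swap_apply_right]
  split_ifs with e
  · rw [e, swap_apply_left]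
  · exact swap_apply_of_ne_of_ne e h.xb_ne'

theorem apply_xb (e : x b ≠ b) : contr x a b (x b) = x a := by
  simp only [contr, Perm.mul_apply, swap_apply_of_ne_of_ne h.xb_ne e,
    swap_apply_of_ne_of_ne e h.xb_ne', h.xx, swap_apply_left]

theorem apply_other {v : α} (h1 : v ≠ a) (h2 : v ≠ b) (h3 : v ≠ x a) (h4 : v ≠ x b) :
    contr x a b v = x v := by
  simp only [contr, Perm.mul_apply, swap_apply_of_ne_of_ne h1 h2, swap_apply_of_ne_of_ne h2 h3]
  exact swap_apply_of_ne_of_ne (fun e => h4 (by rw [← e, h.xx])) (fun e => h1 (x.injective e))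

theorem ne_a {v : α} (hv : v ≠ a) : contr x a b v ≠ a :=
  fun e => hv ((contr x a b).injective (e.trans h.apply_a.symm))

theorem ne_b {v : α} (hv : v ≠ b) : contr x a b v ≠ b :=
  fun e => hv ((contr x a b).injective (e.trans h.apply_b.symm))

theorem disj : Perm.Disjoint (contr x a b) (swap a b) := by
  intro v
  by_cases h1 : v = a
  · exact Or.inl (h1 ▸ h.apply_a)
  · by_cases h2 : v = b
    · exact Or.inl (h2 ▸ h.apply_b)
    · exact Or.inr (swap_apply_of_ne_of_ne h1 h2)

theorem mul_swap : contr x a b * swap a b = swap b (x a) * x * swap b (x a) := by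
  rw [contr, mul_assoc, swap_mul_self, mul_one]

theorem inv' : contr x a b * contr x a b = 1 := by
  have e : contr x a b * swap a b * (contr x a b * swap a b) = 1 := by
    rw [h.mul_swap]
    simp only [mul_assoc, swap_mul_self_mul]
    rw [← mul_assoc x, h.inv, one_mul, swap_mul_self]
  rwa [mul_assoc, ← mul_assoc (swap a b), ← h.disj.commute.eq, mul_assoc, swap_mul_self,
    mul_one] at e

theorem card_supp : (contr x a b).support.card + 2 = x.support.card := by
  rw [← card_support_swap h.ne.symm, ← h.disj.card_support_mul, h.mul_swap]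
  nth_rewrite 2 [← swap_inv]
  exact card_support_conj

theorem supp_sub {S : Finset α} (hS : x.support ⊆ S) :
    (contr x a b).support ⊆ (S.erase a).erase b := by
  intro v hv
  rw [mem_support] at hv
  have h1 : v ≠ a := by rintro rfl; exact hv h.apply_a
  have h2 : v ≠ b := by rintro rfl; exact hv h.apply_b
  refine mem_erase.2 ⟨h2, mem_erase.2 ⟨h1, hS (mem_support.2 fun e => ?_)⟩⟩
  refine hv ((h.apply_other h1 h2 ?_ ?_).trans e)
  · rintro rfl; exact h1 (by rw [← e, h.xx])
  · rintro rfl; exact h2 (by rw [← e, h.xx])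

theorem prod_eq {z : Perm α} (ha : z a = a) (hb : z b = b) :
    x * (z * swap a b) =
      swap b (x a) * (swap a (contr x a b (x a)) * (contr x a b * z)) := by
  have e1 : swap a (contr x a b (x a)) * contr x a b = contr x a b * swap a (x a) := by
    rw [mul_swap_eq_swap_mul, h.apply_a]
  have e2 : z * swap a b = swap a b * z := by rw [mul_swap_eq_swap_mul, ha, hb]
  have e3 : swap a b * swap a (x a) = swap b (x a) * swap a b := by
    rw [mul_swap_eq_swap_mul, swap_apply_left, swap_apply_of_ne_of_ne h.mv h.ne'.symm]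
  rw [← mul_assoc (swap a _), e1, e2, contr]
  simp only [mul_assoc, swap_mul_self_mul]
  rw [← mul_assoc (swap a b), e3]
  simp only [mul_assoc, swap_mul_self_mul]

variable {z : Perm α} (ha : z a = a) (hb : z b = b)
include ha hb

theorem fix_a : (contr x a b * z) a = a := by rw [Perm.mul_apply, ha, h.apply_a]

theorem fix_b : (swap a (contr x a b (x a)) * (contr x a b * z)) b = b := by
  rw [Perm.mul_apply, Perm.mul_apply, hb, h.apply_b]
  exact swap_apply_of_ne_of_ne h.ne (h.ne_b h.ne'.symm).symm

theorem sc_iff {p q : α} (hp : p ≠ a) (hp' : p ≠ b) (hq : q ≠ a) (hq' : q ≠ b) :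
    SameCycle (x * (z * swap a b)) p q ↔ SameCycle (contr x a b * z) p q := by
  rw [h.prod_eq ha hb, ins_sc (h.fix_b ha hb) h.ne'.symm hp' hq',
    ins_sc (h.fix_a ha hb) (h.ne_a h.mv) hp hq]

theorem sc_b : SameCycle (x * (z * swap a b)) b (x a) := by
  rw [h.prod_eq ha hb]; exact ins_sc_new (h.fix_b ha hb) h.ne'.symm

theorem sc_a : SameCycle (x * (z * swap a b)) a (contr x a b (x a)) := by
  rw [h.prod_eq ha hb, ins_sc (h.fix_b ha hb) h.ne'.symm h.ne.symm (h.ne_b h.ne'.symm)]
  exact ins_sc_new (h.fix_a ha hb) (h.ne_a h.mv)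

theorem cyc_eq {p : α} (hp : p ≠ a) (hp' : p ≠ b) :
    cyc (x * (z * swap a b)) p = cyc (contr x a b * z) p +
      (if SameCycle (contr x a b * z) p (contr x a b (x a)) then 1 else 0) +
      if SameCycle (contr x a b * z) p (x a) then 1 else 0 := by
  rw [h.prod_eq ha hb, ins_cyc (h.fix_b ha hb) h.ne'.symm hp',
    ins_cyc (h.fix_a ha hb) (h.ne_a h.mv) hp]
  simp only [ins_sc (h.fix_a ha hb) (h.ne_a h.mv) hp h.mv]

end CD

end Cfsg.Agent.H68
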