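import Cfsg.Agent.H68.InvIns

/-! Two involutions of the same type in `Sym(n)`, `n ≥ 5`, have a common "odd neighbour". -/

set_option autoImplicit false
set_option linter.unusedSectionVars false

namespace Cfsg.Agent.H68

open Equiv Equiv.Perm Finset

variable {α : Type*} [Fintype α] [DecidableEq α]

/-- all components are paths with an odd number of points -/
def Ai (x w : Perm α) : Prop := ∀ v, SameCycle w v (x v) ∧ Odd (cyc w v)

/-- a single closed component on `S` -/
def Bi (S : Finset α) (x w : Perm α) : Prop :=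
  (∀ v, v ∉ S → w v = v) ∧ ∀ u ∈ S, ¬ SameCycle w u (x u) ∧
    (∀ v ∈ S, SameCycle w v u ∨ SameCycle w v (x u)) ∧ 2 * cyc w u = S.card

theorem Bi.odd {S : Finset α} {x w : Perm α} (h : Bi S x w) (hS : S.card % 4 = 2) :
    Odd (orderOf w) := by
  refine odd_orderOf_of_cyc fun v => ?_
  by_cases hv : v ∈ S
  · have := (h.2 v hv).2.2
    exact Nat.odd_iff.2 (by omega)
  · rw [cyc_fixed (h.1 v hv)]; exact odd_one

/-- representative of a point after contraction -/
def rho (x : Perm α) (a b v : α) : α :=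
  if v = a then contr x a b (x a) else if v = b then x a else v

namespace CD
variable {x : Perm α} {a b : α} (h : CD x a b)
include h

theorem rho_ne_a (v : α) : rho x a b v ≠ a := by
  unfold rho; split_ifs with h1 h2
  exacts [h.ne_a h.mv, h.mv, h1]

theorem rho_ne_b (v : α) : rho x a b v ≠ b := by
  unfold rho; split_ifs with h1 h2
  exacts [h.ne_b h.ne'.symm, h.ne'.symm, h2]

theorem rho_x (u : α) : rho x a b (x u) = contr x a b (rho x a b u) := by
  have hi : ∀ v, contr x a b (contr x a b v) = v := fun v => by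
    rw [← Perm.mul_apply, h.inv', Perm.one_apply]
  by_cases h1 : u = a
  · simp [rho, h1, hi, h.mv, h.ne'.symm]
  by_cases h2 : u = b
  · by_cases e : x b = b <;> simp [rho, h2, h.ne, h.apply_xa, e, h.xb_ne]
  by_cases h3 : u = x a
  · simp [rho, h3, h.xx, h.mv, h.ne'.symm]
  by_cases h4 : u = x b
  · have e : x b ≠ b := h4 ▸ h2
    simp [rho, h4, h.xx, h.ne, h.xb_ne, e, h.apply_xb e]
  have h5 : x u ≠ a := fun e => h3 (by rw [← e, h.xx])
  have h6 : x u ≠ b := fun e => h4 (by rw [← e, h.xx])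
  simp [rho, h1, h2, h5, h6, h.apply_other h1 h2 h3 h4]

variable {z : Perm α} (ha : z a = a) (hb : z b = b)
include ha hb

theorem sc_rho (v : α) : SameCycle (x * (z * swap a b)) v (rho x a b v) := by
  unfold rho; split_ifs with h1 h2
  exacts [h1 ▸ h.sc_a ha hb, h2 ▸ h.sc_b ha hb, SameCycle.refl _ _]

theorem sc_rho_iff (p q : α) : SameCycle (x * (z * swap a b)) p q ↔
    SameCycle (contr x a b * z) (rho x a b p) (rho x a b q) := by
  rw [← h.sc_iff ha hb (h.rho_ne_a p) (h.rho_ne_b p) (h.rho_ne_a q) (h.rho_ne_b q)]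
  exact ⟨fun e => ((h.sc_rho ha hb p).symm.trans e).trans (h.sc_rho ha hb q),
    fun e => ((h.sc_rho ha hb p).trans e).trans (h.sc_rho ha hb q).symm⟩

theorem stepA (H : Ai (contr x a b) (contr x a b * z)) : Ai x (x * (z * swap a b)) := by
  intro v
  refine ⟨by rw [h.sc_rho_iff ha hb, h.rho_x]; exact (H _).1, ?_⟩
  rw [cyc_congr (h.sc_rho ha hb v), h.cyc_eq ha hb (h.rho_ne_a v) (h.rho_ne_b v)]
  have h1 := Nat.odd_iff.1 (H (rho x a b v)).2
  have h2 : SameCycle (contr x a b * z) (rho x a b v) (contr x a b (x a)) ↔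
      SameCycle (contr x a b * z) (rho x a b v) (x a) :=
    ⟨fun e => e.trans (H _).1.symm, fun e => e.trans (H _).1⟩
  rw [Nat.odd_iff]
  simp only [h2]
  split_ifs <;> omega

theorem stepB {S : Finset α} (haS : a ∉ S) (hbS : b ∉ S) (hxa : x a ∈ S)
    (hxb : contr x a b (x a) ∈ S) (H : Bi S (contr x a b) (contr x a b * z)) :
    Bi (insert a (insert b S)) x (x * (z * swap a b)) := by
  have hr : ∀ v ∈ insert a (insert b S), rho x a b v ∈ S := by
    intro v hv
    unfold rho; split_ifs with h1 h2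
    exacts [hxb, hxa, by simpa [h1, h2] using hv]
  refine ⟨fun v hv => ?_, fun u hu => ⟨?_, fun v hv => ?_, ?_⟩⟩
  · simp only [mem_insert, not_or] at hv
    rw [h.prod_eq ha hb, Perm.mul_apply, Perm.mul_apply, H.1 v hv.2.2,
      swap_apply_of_ne_of_ne hv.1 (by rintro rfl; exact hv.2.2 hxb),
      swap_apply_of_ne_of_ne hv.2.1 (by rintro rfl; exact hv.2.2 hxa)]
  · rw [h.sc_rho_iff ha hb, h.rho_x]; exact (H.2 _ (hr u hu)).1
  · rw [h.sc_rho_iff ha hb, h.sc_rho_iff ha hb, h.rho_x]
    exact (H.2 _ (hr u hu)).2.1 _ (hr v hv)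
  · rw [cyc_congr (h.sc_rho ha hb u), h.cyc_eq ha hb (h.rho_ne_a u) (h.rho_ne_b u),
      card_insert_of_notMem (by simp [haS, h.ne.symm]), card_insert_of_notMem hbS,
      ← (H.2 _ (hr u hu)).2.2]
    have h1 := (H.2 _ hxa).1
    have h2 := (H.2 _ hxa).2.1 _ (hr u hu)
    split_ifs with c1 c2 c2
    · exact absurd (c2.symm.trans c1) h1
    · ring
    · ring
    · tauto

end CD

theorem fix_of_supp {z : Perm α} {S : Finset α} {a b : α} (h : z.support ⊆ (S.erase a).erase b) :
    z a = a ∧ z b = b :=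
  ⟨notMem_support.1 fun e => by simpa using h e, notMem_support.1 fun e => by simpa using h e⟩

theorem disj_swap {z : Perm α} {a b : α} (ha : z a = a) (hb : z b = b) :
    Perm.Disjoint z (swap a b) := by
  intro v
  by_cases h1 : v = a
  · exact Or.inl (h1 ▸ ha)
  · by_cases h2 : v = b
    · exact Or.inl (h2 ▸ hb)
    · exact Or.inr (swap_apply_of_ne_of_ne h1 h2)

theorem add_swap {z : Perm α} {a b : α} (hz : z * z = 1) (ha : z a = a) (hb : z b = b)
    (hab : a ≠ b) : z * swap a b * (z * swap a b) = 1 ∧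
      (z * swap a b).support = insert a (insert b z.support) ∧
      (z * swap a b).support.card = z.support.card + 2 := by
  have hd := disj_swap ha hb
  refine ⟨?_, ?_, by rw [hd.card_support_mul, card_support_swap hab]⟩
  · rw [mul_assoc, ← mul_assoc (swap a b), ← hd.commute.eq, mul_assoc, swap_mul_self, mul_one, hz]
  · rw [hd.support_mul, support_swap hab]
    ext v; simp only [mem_union, mem_insert, mem_singleton]; tauto

theorem exists_A (N : ℕ) : ∀ (S : Finset α) (x y : Perm α), x * x = 1 → y * y = 1 →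
    x.support ⊆ S → y.support ⊆ S → x.support.card = N → y.support.card = N → N < S.card →
    ∃ z : Perm α, z * z = 1 ∧ z.support ⊆ S ∧ z.support.card = N ∧ Ai x (x * z) ∧ Ai y (y * z) := by
  induction N using Nat.strong_induction_on with
  | _ N ih =>
  intro S x y hx hy hxS hyS hxN hyN hN
  rcases Nat.eq_zero_or_pos N with rfl | hpos
  · rw [card_eq_zero, support_eq_empty_iff] at hxN hyN
    subst hxN hyN
    have : Ai (1 : Perm α) (1 * 1) := fun v =>
      ⟨SameCycle.refl _ _, by rw [cyc_fixed (by simp)]; exact odd_one⟩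
    exact ⟨1, by simp, by simp, by simp, this, this⟩
  have yy : ∀ v, y (y v) = v := fun v => by rw [← Perm.mul_apply, hy, Perm.one_apply]
  obtain ⟨a, haS, b, hbS, h1, h2⟩ : ∃ a ∈ S, ∃ b ∈ S, CD x a b ∧ (CD y a b ∨ CD y b a) := by
    by_cases hs : x.support ⊆ y.support
    · have e := eq_of_subset_of_card_le hs (by omega)
      obtain ⟨a, ha⟩ : x.support.Nonempty := card_pos.1 (by omega)
      obtain ⟨b, hb, hb'⟩ := exists_mem_notMem_of_card_lt_card (s := x.support) (t := S) (by omega)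
      refine ⟨a, hxS ha, b, hb, ⟨hx, mem_support.1 ha, ?_, ?_⟩, Or.inl ⟨hy, ?_, ?_, ?_⟩⟩
      · rintro rfl; exact hb' ha
      · rintro rfl; exact hb' (apply_mem_support.2 ha)
      · exact mem_support.1 (e ▸ ha)
      · rintro rfl; exact hb' ha
      · rintro rfl; exact hb' (e ▸ apply_mem_support.2 (e ▸ ha))
    · obtain ⟨a, ha, ha'⟩ := not_subset.1 hs
      obtain ⟨b, hb, hb'⟩ : ∃ b ∈ y.support, b ≠ x a := by
        obtain ⟨c, hc⟩ : y.support.Nonempty := card_pos.1 (by omega)
        by_cases e : c = x a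
        · exact ⟨y c, apply_mem_support.2 hc, e ▸ mem_support.1 hc⟩
        · exact ⟨c, hc, e⟩
      have hab : b ≠ a := by rintro rfl; exact ha' hb
      exact ⟨a, hxS ha, b, hyS hb, ⟨hx, mem_support.1 ha, hab, hb'⟩, Or.inr ⟨hy, mem_support.1 hb,
        hab.symm, by rintro rfl; exact ha' (apply_mem_support.2 hb)⟩⟩
  obtain ⟨y', hy1, hy2, hy3, hy4⟩ : ∃ y' : Perm α, y' * y' = 1 ∧
      y'.support ⊆ (S.erase a).erase b ∧ y'.support.card + 2 = y.support.card ∧
      ∀ z : Perm α, z a = a → z b = b → Ai y' (y' * z) → Ai y (y * (z * swap a b)) := by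
    rcases h2 with h2 | h2
    · exact ⟨_, h2.inv', h2.supp_sub hyS, h2.card_supp, fun z ha hb => h2.stepA ha hb⟩
    · exact ⟨_, h2.inv', by rw [erase_right_comm]; exact h2.supp_sub hyS, h2.card_supp,
        fun z ha hb => swap_comm a b ▸ h2.stepA hb ha⟩
  have hc := h1.card_supp
  obtain ⟨z, hz, hzS, hzN, hA, hB⟩ := ih (N - 2) (by omega) ((S.erase a).erase b) _ y' h1.inv' hy1
    (h1.supp_sub hxS) hy2 (by omega) (by omega) (by
      rw [card_erase_of_mem (mem_erase.2 ⟨h1.ne, hbS⟩), card_erase_of_mem haS]; omega)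
  obtain ⟨ha, hb⟩ := fix_of_supp hzS
  obtain ⟨e1, e2, e3⟩ := add_swap hz ha hb h1.ne.symm
  refine ⟨_, e1, ?_, by omega, h1.stepA ha hb hA, hy4 z ha hb hB⟩
  rw [e2]
  exact insert_subset haS (insert_subset hbS (hzS.trans ((erase_subset _ _).trans (erase_subset _ _))))

theorem CD.supp_eq {x : Perm α} {a b : α} (h : CD x a b) (hb : x b ≠ b) :
    (contr x a b).support = (x.support.erase a).erase b := by
  refine eq_of_subset_of_card_le (h.supp_sub subset_rfl) ?_
  have := h.card_supp
  rw [card_erase_of_mem (mem_erase.2 ⟨h.ne, mem_support.2 hb⟩),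
    card_erase_of_mem (mem_support.2 h.mv)]
  omega

theorem exists_B (N : ℕ) : ∀ (S : Finset α) (x y : Perm α), x * x = 1 → y * y = 1 →
    x.support = S → y.support = S → S.card = N → S.Nonempty →
    ∃ z : Perm α, z * z = 1 ∧ z.support = S ∧ Bi S x (x * z) ∧ Bi S y (y * z) := by
  induction N using Nat.strong_induction_on with
  | _ N ih =>
  rintro S x y hx hy hxS hyS hN ⟨a, ha⟩
  have xx : ∀ v, x (x v) = v := fun v => by rw [← Perm.mul_apply, hx, Perm.one_apply]
  have yy : ∀ v, y (y v) = v := fun v => by rw [← Perm.mul_apply, hy, Perm.one_apply]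
  have mx : ∀ v ∈ S, x v ≠ v ∧ x v ∈ S := fun v hv =>
    ⟨mem_support.1 (hxS ▸ hv), hxS ▸ apply_mem_support.2 (hxS ▸ hv)⟩
  have my : ∀ v ∈ S, y v ≠ v ∧ y v ∈ S := fun v hv =>
    ⟨mem_support.1 (hyS ▸ hv), hyS ▸ apply_mem_support.2 (hyS ▸ hv)⟩
  by_cases hb : ∃ b ∈ S, b ≠ a ∧ b ≠ x a ∧ b ≠ y a
  · obtain ⟨b, hb, h1, h2, h3⟩ := hb
    have cx : CD x a b := ⟨hx, (mx a ha).1, h1, h2⟩
    have cy : CD y a b := ⟨hy, (my a ha).1, h1, h3⟩
    have sx := cx.supp_eq (mx b hb).1
    have sy := cy.supp_eq (my b hb).1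
    rw [hxS] at sx; rw [hyS] at sy
    have hxa : x a ∈ (S.erase a).erase b := by simp [h2.symm, mx a ha]
    have hya : y a ∈ (S.erase a).erase b := by simp [h3.symm, my a ha]
    obtain ⟨z, hz, hzS, hA, hB⟩ := ih _ (by
      rw [← hN]; exact (card_le_card (erase_subset _ _)).trans_lt (card_erase_lt_of_mem ha))
      _ _ _ cx.inv' cy.inv' sx sy rfl ⟨_, hxa⟩
    obtain ⟨za, zb⟩ := fix_of_supp hzS.le
    obtain ⟨e1, e2, -⟩ := add_swap hz za zb h1.symm
    have eS : insert a (insert b ((S.erase a).erase b)) = S := by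
      rw [insert_erase (mem_erase.2 ⟨h1, hb⟩), insert_erase ha]
    refine ⟨_, e1, by rw [e2, hzS, eS], ?_, ?_⟩
    · rw [← eS]
      exact cx.stepB za zb (by simp) (by simp) hxa (sx ▸ apply_mem_support.2 (sx ▸ hxa)) hA
    · rw [← eS]
      exact cy.stepB za zb (by simp) (by simp) hya (sy ▸ apply_mem_support.2 (sy ▸ hya)) hB
  · push Not at hb
    have e : y a = x a := by
      by_contra hne
      have h1 := mx _ (my a ha).2
      refine h1.1 (hb _ h1.2 (fun e => hne (x.injective (e.trans (xx a).symm))) fun e => ?_)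
      exact (my a ha).1 (x.injective e)
    have hS : ∀ v ∈ S, v = a ∨ v = x a := fun v hv => by
      by_contra hc
      push Not at hc
      exact hc.2 ((hb v hv hc.1 hc.2).trans e)
    have exy : y = x := by
      ext v
      by_cases hv : v ∈ S
      · rcases hS v hv with rfl | rfl
        · exact e
        · rw [xx, ← e, yy]
      · rw [notMem_support.1 (hyS ▸ hv : v ∉ y.support), notMem_support.1 (hxS ▸ hv : v ∉ x.support)]
    have : Bi S x (x * x) := by
      rw [hx]
      refine ⟨fun _ _ => rfl, fun u hu => ⟨fun c => (mx u hu).1 (sameCycle_one.1 c).symm,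
        fun v hv => ?_, ?_⟩⟩
      · rcases hS u hu with rfl | rfl <;> rcases hS v hv with rfl | rfl <;> simp [xx]
      · have : S = {a, x a} := by
          ext v
          simp only [mem_insert, mem_singleton]
          exact ⟨hS v, by rintro (rfl | rfl); exacts [ha, (mx a ha).2]⟩
        rw [cyc_fixed (by simp), this, card_pair (mx a ha).1.symm]
    exact ⟨x, hx, hxS, this, exy ▸ this⟩

theorem rem_swap {x : Perm α} {a : α} (hx : x * x = 1) (ha : x a ≠ a) :
    x * swap a (x a) * (x * swap a (x a)) = 1 ∧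
      (x * swap a (x a)).support = (x.support.erase a).erase (x a) ∧
      ∀ v, v ≠ a → v ≠ x a → (x * swap a (x a)) v = x v := by
  have xx : ∀ v, x (x v) = v := fun v => by rw [← Perm.mul_apply, hx, Perm.one_apply]
  have h3 : ∀ v, v ≠ a → v ≠ x a → (x * swap a (x a)) v = x v := fun v h1 h2 => by
    rw [Perm.mul_apply, swap_apply_of_ne_of_ne h1 h2]
  refine ⟨?_, ?_, h3⟩
  · nth_rewrite 2 [mul_swap_eq_swap_mul]
    rw [xx, swap_comm (x a), mul_assoc, swap_mul_self_mul, hx]
  · ext v
    simp only [mem_support, mem_erase]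
    by_cases h1 : v = a
    · simp [h1, xx]
    · by_cases h2 : v = x a
      · simp [h2]
      · simp [h1, h2, h3 v h1 h2]

theorem mul_swap_comm {x z : Perm α} {a b : α} (ha : z a = a) (hb : z b = b) :
    x * (z * swap a b) = x * swap a b * z := by
  rw [(disj_swap ha hb).commute.eq, mul_assoc]

theorem exists_mid (hn : 5 ≤ Fintype.card α) {x y : Perm α} (hx : x * x = 1) (hy : y * y = 1)
    (hxy : x.support.card = y.support.card) : ∃ z : Perm α, z * z = 1 ∧
      z.support.card = x.support.card ∧ Odd (orderOf (x * z)) ∧ Odd (orderOf (y * z)) := by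
  rcases (card_le_univ x.support).lt_or_eq with hlt | heq
  · obtain ⟨z, h1, -, h2, h3, h4⟩ := exists_A _ univ x y hx hy (subset_univ _) (subset_univ _) rfl
      hxy.symm hlt
    exact ⟨z, h1, h2, odd_orderOf_of_cyc fun v => (h3 v).2, odd_orderOf_of_cyc fun v => (h4 v).2⟩
  have sx : x.support = univ := eq_univ_of_card _ heq
  have sy : y.support = univ := eq_univ_of_card _ (hxy ▸ heq)
  have xx : ∀ v, x (x v) = v := fun v => by rw [← Perm.mul_apply, hx, Perm.one_apply]
  have yy : ∀ v, y (y v) = v := fun v => by rw [← Perm.mul_apply, hy, Perm.one_apply]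
  have mx : ∀ v, x v ≠ v := fun v => mem_support.1 (sx ▸ mem_univ v)
  have my : ∀ v, y v ≠ v := fun v => mem_support.1 (sy ▸ mem_univ v)
  obtain ⟨a⟩ : Nonempty α := Fintype.card_pos_iff.1 (by omega)
  obtain ⟨z, h1, h2, h3, h4⟩ := exists_B _ univ x y hx hy sx sy rfl ⟨a, mem_univ a⟩
  by_cases hm : Fintype.card α % 4 = 2
  · exact ⟨z, h1, by rw [h2, sx], h3.odd hm, h4.odd hm⟩
  have hev := (h3.2 a (mem_univ a)).2.2
  rw [card_univ] at hev
  clear h1 h2 h3 h4
  have hc : ∀ a : α, ((univ.erase a).erase (x a)).card = Fintype.card α - 2 := fun a => by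
    rw [card_erase_of_mem (by simp [mx a]), card_erase_of_mem (mem_univ a), card_univ]; omega
  by_cases hs : ∃ a, y a = x a
  · obtain ⟨a, ha⟩ := hs
    obtain ⟨p1, p2, -⟩ := rem_swap hx (mx a)
    obtain ⟨q1, q2, -⟩ := rem_swap hy (my a)
    rw [sx] at p2; rw [sy, ha] at q2; rw [ha] at q1
    obtain ⟨z, h1, h2, h3, h4⟩ := exists_B _ _ _ _ p1 q1 p2 q2 rfl (card_pos.1 (by rw [hc]; omega))
    obtain ⟨za, zb⟩ := fix_of_supp h2.le
    obtain ⟨e1, -, e3⟩ := add_swap h1 za zb (mx a).symm
    refine ⟨_, e1, by rw [e3, h2, hc, heq]; omega, ?_, ?_⟩ <;> rw [mul_swap_comm za zb]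
    exacts [h3.odd (by rw [hc]; omega), h4.odd (by rw [hc]; omega)]
  push Not at hs
  have cy : CD y a (x a) := ⟨hy, my a, mx a, (hs a).symm⟩
  obtain ⟨p1, p2, p3⟩ := rem_swap hx (mx a)
  have q2 := cy.supp_eq (my _)
  rw [sx] at p2; rw [sy] at q2
  obtain ⟨b, -, hb⟩ := exists_mem_notMem_of_card_lt_card (s := {a, x a, y a, y (x a)}) (t := univ)
    (card_le_four.trans_lt (by rw [card_univ]; omega))
  simp only [mem_insert, mem_singleton, not_or] at hb
  obtain ⟨b1, b2, b3, b4⟩ := hb
  have eb : contr y a (x a) b = y b := cy.apply_other b1 b2 b3 b4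
  have c1 : y b ≠ a := fun e => b3 (by rw [← e, yy])
  have c2 : y b ≠ x a := fun e => b4 (by rw [← e, yy])
  have cx : CD (x * swap a (x a)) b (y b) :=
    ⟨p1, by rw [p3 b b1 b2]; exact mx b, my b, by rw [p3 b b1 b2]; exact hs b⟩
  have r2 := cx.supp_eq (by rw [p3 _ c1 c2]; exact mx _)
  obtain ⟨s1, s2, s3⟩ := rem_swap cy.inv' (a := b) (by rw [eb]; exact my b)
  rw [eb] at s1 s2 s3
  rw [p2] at r2; rw [q2] at s2
  set S := (((univ.erase a).erase (x a)).erase b).erase (y b) with hS
  have hSc : S.card = Fintype.card α - 4 := by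
    rw [hS, card_erase_of_mem (by simp [c1, c2, my b]), card_erase_of_mem (by simp [b1, b2]), hc]
    omega
  obtain ⟨z, h1, h2, h3, h4⟩ := exists_B _ S _ _ cx.inv' s1 r2 s2 rfl (card_pos.1 (by omega))
  obtain ⟨zb, zb'⟩ := fix_of_supp h2.le
  obtain ⟨za, za'⟩ := fix_of_supp (h2.le.trans ((erase_subset _ _).trans (erase_subset _ _)))
  obtain ⟨e1, -, e3⟩ := add_swap h1 zb zb' (my b).symm
  have wa : (z * swap b (y b)) a = a := by
    rw [Perm.mul_apply, swap_apply_of_ne_of_ne (Ne.symm b1) c1.symm, za]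
  have wa' : (z * swap b (y b)) (x a) = x a := by
    rw [Perm.mul_apply, swap_apply_of_ne_of_ne (Ne.symm b2) c2.symm, za']
  obtain ⟨f1, -, f3⟩ := add_swap e1 wa wa' (mx a).symm
  refine ⟨_, f1, by rw [f3, e3, h2, hSc, heq]; omega, ?_, ?_⟩
  · rw [mul_swap_comm wa wa']
    have hxb : (x * swap a (x a)) b ∈ S := by
      rw [p3 b b1 b2]
      simp only [hS, mem_erase, mem_univ, and_true]
      exact ⟨(hs b).symm, mx b, fun e => b1 (x.injective e), fun e => b2 (by rw [← e, xx])⟩
    refine (cx.stepB zb zb' (by simp [hS]) (by simp [hS]) hxb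
      (r2 ▸ apply_mem_support.2 (r2 ▸ hxb)) h3).odd ?_
    rw [card_insert_of_notMem (by simp [hS, (my b).symm]), card_insert_of_notMem (by simp [hS])]
    omega
  · have hS' : ∀ u ∈ S, contr y a (x a) u = (contr y a (x a) * swap b (y b)) u := fun u hu => by
      simp only [hS, mem_erase] at hu
      exact (s3 u hu.2.1 hu.1).symm
    have hya : y a ∈ S := by
      simp only [hS, mem_erase, mem_univ, and_true]
      exact ⟨fun e => b1 (y.injective e).symm, Ne.symm b3, hs a, my a⟩
    refine (cy.stepB (S := S) wa wa' (by simp [hS]) (by simp [hS]) hya ?_ ?_).odd ?_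
    · rw [hS' _ hya]; exact s2 ▸ apply_mem_support.2 (s2 ▸ hya)
    · rw [mul_swap_comm zb zb']
      exact ⟨h4.1, fun u hu => by rw [hS' u hu]; exact h4.2 u hu⟩
    · rw [card_insert_of_notMem (by simp [hS, (mx a).symm]), card_insert_of_notMem (by simp [hS])]
      omega

end Cfsg.Agent.H68
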